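import Cfsg.Agent.H883.BR.Defs
import Cfsg.Agent.H107.SpConj

/-!
# HUB BR, the family `Sp_{2m}(2^f)`: the modules `V` (dimension `2m`) and `V̂` (dimension `2m + 1`)

`G = Sp_{2m}(F)`, `K` a perfect field of characteristic 2 over `F`.

* `rho` : `G → GL(V)`, `V = K^{2m}`;  `rhoh` : `G → GL(V̂)`, `V̂ = V × K` the orthogonal module;
* `sq u = u ⊗ B(u,·)`, `wedge u w = u ⊗ B(w,·) + w ⊗ B(u,·)` in `End V`; `wedgeh` in `End V̂`;
* `xr` : the root groups `1 + t² u²`, `1 + t u ∧ w`.
-/

set_option autoImplicit false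

namespace Cfsg.Agent.H215.BR

open Cfsg Matrix
open Cfsg.Agent.H883.BR
open Cfsg.Agent.ClassicalGeometry.SympBasic
open Cfsg.Agent.H107.SpTr Cfsg.Agent.H107.SpConj

section basic

variable {m : ℕ} {F : Type*} [Field F] (K : Type*) [Field K] [Algebra F K]

/-- the natural module `K^{2m}` -/
abbrev Vn (m : ℕ) (K : Type*) := Fin m ⊕ Fin m → K

/-- vectors over `F` -/
def emb (u : Fin m ⊕ Fin m → F) : Vn m K := fun j => algebraMap F K (u j)

@[simp] theorem emb_apply (u : Fin m ⊕ Fin m → F) (j : Fin m ⊕ Fin m) : emb K u j = algebraMap F K (u j) := rfl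

theorem emb_add (u v : Fin m ⊕ Fin m → F) : emb K (u + v) = emb K u + emb K v := by
  funext j; simp

theorem emb_smul (c : F) (u : Fin m ⊕ Fin m → F) : emb K (c • u) = algebraMap F K c • emb K u := by
  funext j; simp

theorem emb_zero : emb K (0 : Fin m ⊕ Fin m → F) = 0 := by
  funext j; simp

theorem emb_injective : Function.Injective (emb (m := m) (F := F) K) := by
  intro u v h
  funext j
  exact (algebraMap F K).injective (congrFun h j)

theorem emb_single (j : Fin m ⊕ Fin m) : emb K (Pi.single j (1 : F)) = Pi.single j 1 := by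
  funext i
  by_cases h : i = j
  · subst h; simp
  · simp [h]

/-- linear maps which agree on the vectors over `F` are equal -/
theorem ext_emb {W : Type*} [AddCommGroup W] [Module K W] {X Y : Vn m K →ₗ[K] W}
    (h : ∀ u : Fin m ⊕ Fin m → F, X (emb K u) = Y (emb K u)) : X = Y := by
  refine LinearMap.pi_ext' fun j => ?_
  refine LinearMap.ext_ring ?_
  have := h (Pi.single j 1)
  rw [emb_single] at this
  simpa using this

theorem sympForm_emb (u v : Fin m ⊕ Fin m → F) :
    sympForm m K (emb K u) (emb K v) = algebraMap F K (sympForm m F u v) := by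
  rw [sympForm_eq_sum, sympForm_eq_sum, map_sum]
  refine Finset.sum_congr rfl fun i _ => ?_
  simp

/-- the natural representation over `K` -/
def rho : Matrix.symplecticGroup (Fin m) F →* Module.End K (Vn m K) where
  toFun g := Matrix.mulVecLin ((g : Matrix (Fin m ⊕ Fin m) (Fin m ⊕ Fin m) F).map (algebraMap F K))
  map_one' := by
    rw [OneMemClass.coe_one, Matrix.map_one _ (map_zero _) (map_one _), Matrix.mulVecLin_one]
    rfl
  map_mul' g h := by
    rw [Submonoid.coe_mul, Matrix.map_mul, Matrix.mulVecLin_mul]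
    rfl

theorem rho_apply (g : Matrix.symplecticGroup (Fin m) F) (v : Vn m K) :
    rho K g v = ((g : Matrix (Fin m ⊕ Fin m) (Fin m ⊕ Fin m) F).map (algebraMap F K)) *ᵥ v := rfl

theorem rho_emb (g : Matrix.symplecticGroup (Fin m) F) (u : Fin m ⊕ Fin m → F) :
    rho K g (emb K u) = emb K (act g u) := by
  funext j
  rw [rho_apply, emb_apply, act_def, Matrix.mulVec, Matrix.mulVec, dotProduct, dotProduct, map_sum]
  refine Finset.sum_congr rfl fun i _ => ?_
  rw [map_mul]
  rfl

theorem rho_injective : Function.Injective (rho (m := m) (F := F) K) := by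
  intro g h hgh
  refine ext_act fun x => emb_injective K ?_
  rw [← rho_emb, ← rho_emb, hgh]

theorem rho_form (g : Matrix.symplecticGroup (Fin m) F) (v w : Vn m K) :
    sympForm m K (rho K g v) (rho K g w) = sympForm m K v w := by
  have h : ((g : Matrix (Fin m ⊕ Fin m) (Fin m ⊕ Fin m) F).map (algebraMap F K)) ∈
      Matrix.symplecticGroup (Fin m) K := by
    have h1 := g.2
    rw [SymplecticGroup.mem_iff] at h1 ⊢
    have h2 := congrArg (fun A : Matrix (Fin m ⊕ Fin m) (Fin m ⊕ Fin m) F => A.map (algebraMap F K)) h1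
    simp only [Matrix.map_mul] at h2
    have h3 : (Matrix.J (Fin m) F).map (algebraMap F K) = Matrix.J (Fin m) K := by
      ext i j
      rcases i with i | i <;> rcases j with j | j <;>
        simp [Matrix.J, Matrix.one_apply, apply_ite (algebraMap F K)]
    rw [h3] at h2
    rwa [Matrix.transpose_map] at h2
  exact sympForm_mulVec h v w

theorem rho_inv_rho (g : Matrix.symplecticGroup (Fin m) F) (v : Vn m K) : rho K g⁻¹ (rho K g v) = v := by
  rw [← Module.End.mul_apply, ← map_mul, inv_mul_cancel, map_one, Module.End.one_apply]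

theorem rho_rho_inv (g : Matrix.symplecticGroup (Fin m) F) (v : Vn m K) : rho K g (rho K g⁻¹ v) = v := by
  rw [← Module.End.mul_apply, ← map_mul, mul_inv_cancel, map_one, Module.End.one_apply]

theorem rho_form_inv (g : Matrix.symplecticGroup (Fin m) F) (v w : Vn m K) :
    sympForm m K v (rho K g⁻¹ w) = sympForm m K (rho K g v) w := by
  rw [← rho_form K g, rho_rho_inv]

variable {K}

/-- `u ⊗ B(w,·) + w ⊗ B(u,·)` -/
def wedge (u w : Vn m K) : Module.End K (Vn m K) :=
  (sympBilin m K w).smulRight u + (sympBilin m K u).smulRight w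

/-- `u ⊗ B(u,·)` -/
def sq (u : Vn m K) : Module.End K (Vn m K) := (sympBilin m K u).smulRight u

theorem wedge_apply (u w x : Vn m K) : wedge u w x = sympForm m K w x • u + sympForm m K u x • w := rfl

theorem sq_apply (u x : Vn m K) : sq u x = sympForm m K u x • u := rfl

theorem wedge_comm (u w : Vn m K) : wedge u w = wedge w u := add_comm _ _

variable (K) in
theorem ad_wedge (g : Matrix.symplecticGroup (Fin m) F) (u w : Vn m K) :
    ad (rho K) g (wedge u w) = wedge (rho K g u) (rho K g w) := by
  refine LinearMap.ext fun x => ?_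
  rw [ad_apply, Module.End.mul_apply, Module.End.mul_apply, wedge_apply, wedge_apply, map_add, map_smul, map_smul,
    rho_form_inv, rho_form_inv]

variable (K) in
theorem ad_sq (g : Matrix.symplecticGroup (Fin m) F) (u : Vn m K) : ad (rho K) g (sq u) = sq (rho K g u) := by
  refine LinearMap.ext fun x => ?_
  rw [ad_apply, Module.End.mul_apply, Module.End.mul_apply, sq_apply, sq_apply, map_smul, rho_form_inv]

end basic

section two

variable {m : ℕ} {F : Type*} [Field F] {K : Type*} [Field K] [Algebra F K] [CharP K 2]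

theorem form_comm (u v : Vn m K) : sympForm m K u v = sympForm m K v u := by
  rw [sympForm_swap, CharTwo.neg_eq]

/-- the quadratic form `Σ v_i v_{i'}` -/
def Q0 (v : Vn m K) : K := ∑ i, v (Sum.inl i) * v (Sum.inr i)

theorem Q0_add (v w : Vn m K) : Q0 (v + w) = Q0 v + Q0 w + sympForm m K v w := by
  rw [sympForm_eq_sum, Q0, Q0, Q0, ← Finset.sum_add_distrib, ← Finset.sum_add_distrib]
  refine Finset.sum_congr rfl fun i _ => ?_
  have h2 : (2 : K) = 0 := CharTwo.two_eq_zero
  simp only [Pi.add_apply]
  linear_combination (v (Sum.inl i) * w (Sum.inr i)) * h2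

omit [CharP K 2] in
theorem Q0_smul (c : K) (v : Vn m K) : Q0 (c • v) = c ^ 2 * Q0 v := by
  rw [Q0, Q0, Finset.mul_sum]
  refine Finset.sum_congr rfl fun i _ => ?_
  simp only [Pi.smul_apply, smul_eq_mul]
  ring

variable [PerfectRing K 2]

variable (K) in
/-- the square root -/
noncomputable def rt : K →+* K := (frobeniusEquiv K 2).symm.toRingHom

theorem rt_sq (x : K) : rt K x ^ 2 = x := by
  have h := (frobeniusEquiv K 2).apply_symm_apply x
  rwa [frobeniusEquiv_apply, frobenius_def] at h

theorem rt_pow (x : K) : rt K (x ^ 2) = x := by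
  have h := (frobeniusEquiv K 2).symm_apply_apply x
  rwa [frobeniusEquiv_apply, frobenius_def] at h

omit [PerfectRing K 2] in
theorem sq_inj {x y : K} (h : x ^ 2 = y ^ 2) : x = y := by
  have h1 : (x - y) ^ 2 = 0 := by
    rw [CharTwo.sub_eq_add, CharTwo.add_sq, h, CharTwo.add_self_eq_zero]
  exact sub_eq_zero.1 ((pow_eq_zero_iff two_ne_zero).1 h1)

variable (K) in
/-- the functional `v ↦ √(Q₀ v + Q₀ (g v))` -/
noncomputable def fl (g : Matrix.symplecticGroup (Fin m) F) : Vn m K →ₗ[K] K where
  toFun v := rt K (Q0 v + Q0 (rho K g v))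
  map_add' v w := by
    have h1 : Q0 (v + w) + Q0 (rho K g (v + w)) = (Q0 v + Q0 (rho K g v)) + (Q0 w + Q0 (rho K g w)) := by
      rw [map_add (rho K g), Q0_add, Q0_add, rho_form]
      linear_combination (sympForm m K v w) * (CharTwo.two_eq_zero : (2 : K) = 0)
    rw [h1, map_add]
  map_smul' c v := by
    rw [map_smul, Q0_smul, Q0_smul, ← mul_add, map_mul, rt_pow]
    rfl

theorem fl_sq (g : Matrix.symplecticGroup (Fin m) F) (v : Vn m K) :
    fl K g v ^ 2 = Q0 v + Q0 (rho K g v) := rt_sq _

theorem fl_mul (g h : Matrix.symplecticGroup (Fin m) F) (v : Vn m K) :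
    fl K (g * h) v = fl K h v + fl K g (rho K h v) := by
  apply sq_inj
  rw [CharTwo.add_sq, fl_sq, fl_sq, fl_sq, map_mul, Module.End.mul_apply]
  linear_combination (-Q0 (rho K h v)) * (CharTwo.two_eq_zero : (2 : K) = 0)

theorem fl_one (v : Vn m K) : fl K (1 : Matrix.symplecticGroup (Fin m) F) v = 0 := by
  apply sq_inj
  rw [fl_sq, map_one, Module.End.one_apply, CharTwo.add_self_eq_zero]
  ring

variable (K) in
/-- the orthogonal module `V̂ = V × K`, with the quadratic form `Q₀ v + l²` -/
noncomputable def rhoh : Matrix.symplecticGroup (Fin m) F →* Module.End K (Vn m K × K) where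
  toFun g := ((rho K g).comp (LinearMap.fst K _ _)).prod ((LinearMap.snd K _ _) + (fl K g).comp (LinearMap.fst K _ _))
  map_one' := by
    refine LinearMap.ext fun x => ?_
    refine Prod.ext ?_ ?_
    · simp
    · simp [fl_one]
  map_mul' g h := by
    refine LinearMap.ext fun x => ?_
    refine Prod.ext ?_ ?_
    · simp
    · simp [fl_mul, add_assoc]

theorem rhoh_apply (g : Matrix.symplecticGroup (Fin m) F) (x : Vn m K × K) :
    rhoh K g x = (rho K g x.1, x.2 + fl K g x.1) := rfl

theorem rhoh_inv_rhoh (g : Matrix.symplecticGroup (Fin m) F) (x : Vn m K × K) : rhoh K g⁻¹ (rhoh K g x) = x := by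
  rw [← Module.End.mul_apply, ← map_mul, inv_mul_cancel, map_one, Module.End.one_apply]

theorem rhoh_rhoh_inv (g : Matrix.symplecticGroup (Fin m) F) (x : Vn m K × K) : rhoh K g (rhoh K g⁻¹ x) = x := by
  rw [← Module.End.mul_apply, ← map_mul, mul_inv_cancel, map_one, Module.End.one_apply]

omit [PerfectRing K 2] [CharP K 2] in
/-- `u ⊗ B(w,·) + w ⊗ B(u,·)` on `V̂` -/
def wedgeh (u w : Vn m K × K) : Module.End K (Vn m K × K) :=
  ((sympBilin m K w.1).comp (LinearMap.fst K _ _)).smulRight u +
    ((sympBilin m K u.1).comp (LinearMap.fst K _ _)).smulRight w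

/-- `u ⊗ B(u,·)` on `V̂` -/
def sqh (u : Vn m K × K) : Module.End K (Vn m K × K) :=
  ((sympBilin m K u.1).comp (LinearMap.fst K _ _)).smulRight u

omit [PerfectRing K 2] [CharP K 2] in
theorem wedgeh_apply (u w x : Vn m K × K) :
    wedgeh u w x = sympForm m K w.1 x.1 • u + sympForm m K u.1 x.1 • w := rfl

omit [PerfectRing K 2] [CharP K 2] in
theorem sqh_apply (u x : Vn m K × K) : sqh u x = sympForm m K u.1 x.1 • u := rfl

theorem ad_wedgeh (g : Matrix.symplecticGroup (Fin m) F) (u w : Vn m K × K) :
    ad (rhoh K) g (wedgeh u w) = wedgeh (rhoh K g u) (rhoh K g w) := by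
  refine LinearMap.ext fun x => ?_
  rw [ad_apply, Module.End.mul_apply, Module.End.mul_apply, wedgeh_apply, wedgeh_apply, map_add, map_smul, map_smul,
    rhoh_apply g⁻¹, rho_form_inv, rho_form_inv, rhoh_apply g u, rhoh_apply g w]

/-- **A short root element on `V̂`.** -/
theorem rhoh_of_rho {g : Matrix.symplecticGroup (Fin m) F} {u w : Vn m K} {t e : K} (huw : sympForm m K u w = 0)
    (h : rho K g = 1 + t • wedge u w + (t ^ 2 * e) • sq u) :
    rhoh K g = 1 + t • wedgeh (u, rt K (Q0 u)) (w, rt K e + rt K (Q0 w)) + (t ^ 2 * e) • sqh (u, rt K (Q0 u)) := by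
  refine LinearMap.ext fun x => ?_
  have hg : rho K g x.1 = x.1 + (t * sympForm m K w x.1 + t ^ 2 * e * sympForm m K u x.1) • u +
      (t * sympForm m K u x.1) • w := by
    rw [h, LinearMap.add_apply, LinearMap.add_apply, LinearMap.smul_apply, LinearMap.smul_apply, wedge_apply, sq_apply,
      Module.End.one_apply]
    module
  have hf : fl K g x.1 = t * ((rt K e + rt K (Q0 w)) * sympForm m K u x.1 + rt K (Q0 u) * sympForm m K w x.1) +
      t ^ 2 * e * (rt K (Q0 u) * sympForm m K u x.1) := by
    apply sq_inj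
    rw [fl_sq, hg, Q0_add, Q0_add, Q0_smul, Q0_smul]
    simp only [sympForm_add_left, sympForm_smul_left, sympForm_smul_right, huw, form_comm (K := K) x.1 u,
      form_comm (K := K) x.1 w]
    have h2 : (2 : K) = 0 := CharTwo.two_eq_zero
    have e1 := rt_sq (K := K) e
    have e2 := rt_sq (K := K) (Q0 u)
    have e3 := rt_sq (K := K) (Q0 w)
    generalize sympForm m K u x.1 = a
    generalize sympForm m K w x.1 = b
    generalize rt K e = re at e1 ⊢
    generalize rt K (Q0 u) = ru at e2 ⊢
    generalize rt K (Q0 w) = rw at e3 ⊢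
    linear_combination (-(t ^ 2 * a ^ 2)) * e1 - (t ^ 2 * b ^ 2 + t ^ 4 * e ^ 2 * a ^ 2 + 2 * t ^ 3 * e * a * b) * e2 -
      (t ^ 2 * a ^ 2) * e3 + (Q0 x.1 + t * a * b - t ^ 2 * re * rw * a ^ 2 - t ^ 2 * (re + rw) * a * ru * b -
        t ^ 3 * e * ru * a ^ 2 * (re + rw)) * h2
  refine Prod.ext ?_ ?_
  · rw [rhoh_apply, hg]
    simp only [LinearMap.add_apply, LinearMap.smul_apply, wedgeh_apply, sqh_apply, Module.End.one_apply, Prod.fst_add,
      Prod.smul_fst]
    module
  · rw [rhoh_apply, hf]
    simp only [LinearMap.add_apply, LinearMap.smul_apply, wedgeh_apply, sqh_apply, Module.End.one_apply, Prod.snd_add,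
      Prod.smul_snd, smul_eq_mul]
    ring

end two

/-! ### root groups -/

section root

variable {m : ℕ} {F : Type*} [Field F] {K : Type*} [Field K] [Algebra F K] [CharP K 2]

theorem rho_transv (u : Fin m ⊕ Fin m → F) (c : F) :
    rho K (transv u c) = 1 + algebraMap F K c • sq (emb K u) := by
  refine ext_emb (F := F) K fun x => ?_
  rw [rho_emb, act_transv, emb_add, emb_smul, LinearMap.add_apply, LinearMap.smul_apply, sq_apply,
    form_comm (K := K) (emb K u), sympForm_emb, map_mul, Module.End.one_apply, smul_smul]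

theorem rho_Z {u w : Fin m ⊕ Fin m → F} (h : sympForm m F u w = 0) (c : F) :
    rho K (Z u w c) = 1 + algebraMap F K c • wedge (emb K u) (emb K w) := by
  refine ext_emb (F := F) K fun x => ?_
  rw [rho_emb, act_Z h, emb_add, emb_add, emb_smul, emb_smul, LinearMap.add_apply, LinearMap.smul_apply, wedge_apply,
    form_comm (K := K) (emb K u), form_comm (K := K) (emb K w), sympForm_emb, sympForm_emb, map_mul, map_mul,
    Module.End.one_apply]
  module

variable [PerfectRing K 2]

variable (K) in
/-- the singular lift of a vector -/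
noncomputable def lift (v : Vn m K) : Vn m K × K := (v, rt K (Q0 v))

theorem rhoh_lift (g : Matrix.symplecticGroup (Fin m) F) (v : Vn m K) : rhoh K g (lift K v) = lift K (rho K g v) := by
  rw [lift, lift, rhoh_apply]
  refine Prod.ext rfl ?_
  apply sq_inj
  simp only
  rw [CharTwo.add_sq, rt_sq, rt_sq, fl_sq]
  linear_combination (Q0 v) * (CharTwo.two_eq_zero : (2 : K) = 0)

theorem rhoh_Z {u w : Fin m ⊕ Fin m → F} (h : sympForm m F u w = 0) (c : F) :
    rhoh K (Z u w c) = 1 + algebraMap F K c • wedgeh (lift K (emb K u)) (lift K (emb K w)) := by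
  have h1 : sympForm m K (emb K u) (emb K w) = 0 := by rw [sympForm_emb, h, map_zero]
  have h2 : rho K (Z u w c) = 1 + algebraMap F K c • wedge (emb K u) (emb K w) +
      ((algebraMap F K c) ^ 2 * 0) • sq (emb K u) := by
    rw [rho_Z h, mul_zero, zero_smul, add_zero]
  rw [rhoh_of_rho h1 h2, mul_zero, zero_smul, add_zero, map_zero, zero_add]
  rfl

/-- the transvection with parameter `c²` on `V̂` -/
theorem rhoh_transv (u : Fin m ⊕ Fin m → F) (c : F) :
    rhoh K (transv u (c ^ 2)) = 1 + algebraMap F K c • wedgeh (lift K (emb K u)) (0, 1) +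
      (algebraMap F K c ^ 2) • sqh (lift K (emb K u)) := by
  have h1 : sympForm m K (emb K u) 0 = 0 := by simp
  have h0 : Q0 (0 : Vn m K) = 0 := by simp [Q0]
  have h2 : rho K (transv u (c ^ 2)) = 1 + algebraMap F K c • wedge (emb K u) 0 +
      ((algebraMap F K c) ^ 2 * 1) • sq (emb K u) := by
    rw [rho_transv, map_pow, mul_one]
    have h3 : wedge (emb K u) (0 : Vn m K) = 0 := by
      refine LinearMap.ext fun x => ?_
      rw [wedge_apply]
      simp
    rw [h3, smul_zero, add_zero]
  rw [rhoh_of_rho h1 h2, mul_one, map_one, h0, map_zero, add_zero]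
  rfl

variable (F K) in
/-- the field `F` inside `K` -/
abbrev fr : Subfield K := (algebraMap F K).fieldRange

omit [CharP K 2] [PerfectRing K 2] in
variable (K) in
/-- the root groups `1 + t² u²` with parameters in the subfield of `K` -/
noncomputable def xs (u : Fin m ⊕ Fin m → F) (t : fr F K) : Matrix.symplecticGroup (Fin m) F :=
  transv u (((algebraMap F K).rangeRestrictFieldEquiv.symm t) ^ 2)

omit [CharP K 2] [PerfectRing K 2] in
theorem map_xs (t : fr F K) : algebraMap F K ((algebraMap F K).rangeRestrictFieldEquiv.symm t) = t := by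
  have h := (algebraMap F K).rangeRestrictFieldEquiv.apply_symm_apply t
  exact congrArg Subtype.val h

omit [PerfectRing K 2] [CharP K 2] in
theorem oneP [PerfectRing F 2] [CharP F 2] : OneP (fr F K) (xs (m := m) (F := F) K) where
  add u s t := by
    rw [xs, xs, xs, map_add, CharTwo.add_sq, transv_mul]
  gen := by
    refine eq_top_of_transv fun v c _ => Subgroup.subset_closure ?_
    refine ⟨v, (algebraMap F K).rangeRestrictFieldEquiv (rt F c), ?_⟩
    rw [xs, RingEquiv.symm_apply_apply, rt_sq]

omit [PerfectRing K 2] in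
theorem polyDeg_rho : PolyDeg (rho K) (fr F K) (xs (m := m) (F := F) K) 2 := by
  intro u
  refine ⟨fun j => if j = 0 then 1 else if j = 2 then sq (emb K u) else 0, fun t => ?_⟩
  rw [xs, rho_transv, map_pow, map_xs, Finset.sum_range_succ, Finset.sum_range_succ, Finset.sum_range_one]
  simp

theorem polyDeg_rhoh : PolyDeg (rhoh K) (fr F K) (xs (m := m) (F := F) K) 2 := by
  intro u
  refine ⟨fun j => if j = 0 then 1 else if j = 1 then wedgeh (lift K (emb K u)) (0, 1) else
    if j = 2 then sqh (lift K (emb K u)) else 0, fun t => ?_⟩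
  rw [xs, rhoh_transv, map_xs, Finset.sum_range_succ, Finset.sum_range_succ, Finset.sum_range_one]
  simp

end root

end Cfsg.Agent.H215.BR
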